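-- helper20: package [P-W] of S4414 (helper78's project): the weight system of an abelian normal
-- subgroup of odd order over an algebraically closed field of characteristic 2.
import Mathlib
import Cfsg.Agent.Lib.Helper78.TN.Defs

set_option autoImplicit false

namespace Cfsg.Agent.Lib.Helper20.TN

open Cfsg.Agent.Lib.Helper78.TN
open scoped commutatorElement

universe u v w

section
variable {F : Type u} [Field F] {S : Type v} [Group S] {V : Type w} [AddCommGroup V] [Module F V]

/-- conjugation action on functions on `N` -/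
def wAct (N : Subgroup S) [hN : N.Normal] (g : S) (χ : N → F) : N → F :=
  fun n => χ ⟨g⁻¹ * n * g, by
    have := hN.conj_mem n n.2 g⁻¹
    simpa using this⟩

theorem wAct_apply (N : Subgroup S) [hN : N.Normal] (g : S) (χ : N → F) (n : N) (h : g⁻¹ * n * g ∈ N) :
    wAct N g χ n = χ ⟨g⁻¹ * n * g, h⟩ := rfl

/-- simultaneous eigenspace -/
def wSp (R : Representation F S V) (N : Subgroup S) (χ : N → F) : Submodule F V :=
  ⨅ n : N, Module.End.eigenspace (R (n : S)) (χ n)

theorem mem_wSp (R : Representation F S V) (N : Subgroup S) (χ : N → F) (m : V) :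
    m ∈ wSp R N χ ↔ ∀ n : N, R (n : S) m = χ n • m := by
  simp [wSp, Module.End.mem_eigenspace_iff]

theorem R_pow_card (R : Representation F S V) (N : Subgroup S) [Finite N] (n : N) :
    (R (n : S)) ^ (Nat.card N) = 1 := by
  rw [← map_pow, ← Subgroup.coe_pow, pow_card_eq_one', Subgroup.coe_one, map_one]

theorem R_semisimple [CharP F 2] (R : Representation F S V) (N : Subgroup S) [Finite N]
    (hodd : Odd (Nat.card N)) (n : N) : Module.End.IsSemisimple (R (n : S)) := by
  have hne : ((Nat.card N : ℕ) : F) ≠ 0 := by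
    intro h
    rw [CharP.cast_eq_zero_iff F 2] at h
    exact (Nat.not_even_iff_odd.mpr hodd) (even_iff_two_dvd.mpr h)
  have hsq : Squarefree (Polynomial.X ^ (Nat.card N) - 1 : Polynomial F) :=
    (Polynomial.X_pow_sub_one_separable_iff.mpr hne).squarefree
  refine Module.End.isSemisimple_of_squarefree_aeval_eq_zero hsq ?_
  simp only [map_sub, map_pow, Polynomial.aeval_X, map_one]
  rw [R_pow_card R N n, sub_self]

theorem wSp_eq [CharP F 2] (R : Representation F S V) (N : Subgroup S) [Finite N]
    (hodd : Odd (Nat.card N)) (χ : N → F) :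
    wSp R N χ = ⨅ n : N, Module.End.maxGenEigenspace (R (n : S)) (χ n) := by
  unfold wSp
  congr 1
  funext n
  exact ((R_semisimple R N hodd n).isFinitelySemisimple.maxGenEigenspace_eq_eigenspace (χ n)).symm

end

theorem lemWeights : Cfsg.Agent.Lib.Helper78.TN.LemWeights.{u, v, w} := by
  intro F _ _ _ S _ V _ _ _ R N Q hNn _ hNab hNodd q hq hQ hcomm hfix
  -- commutation
  have hcommute : ∀ a b : N, Commute (R (a : S)) (R (b : S)) := by
    intro a b
    show R (a : S) * R (b : S) = R (b : S) * R (a : S)
    rw [← map_mul, ← map_mul, hNab a a.2 b b.2]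
  have hmaps : ∀ (i j : N) (φ : F), Set.MapsTo (R (i : S)) (Module.End.maxGenEigenspace (R (j : S)) φ)
      (Module.End.maxGenEigenspace (R (j : S)) φ) := fun i j φ =>
    Module.End.mapsTo_maxGenEigenspace_of_comm (hcommute j i) φ
  have hindep : iSupIndep (wSp R N) := by
    have h1 := Module.End.independent_iInf_maxGenEigenspace_of_forall_mapsTo
      (fun n : N => R (n : S)) hmaps
    have h2 : wSp R N = fun χ : N → F => ⨅ n : N, Module.End.maxGenEigenspace (R (n : S)) (χ n) := by
      funext χ
      exact wSp_eq R N hNodd χ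
    rw [h2]
    exact h1
  have htop : ⨆ χ : N → F, wSp R N χ = ⊤ := by
    have h1 := Module.End.iSup_iInf_maxGenEigenspace_eq_top_of_forall_mapsTo
      (fun n : N => R (n : S)) hmaps (fun n => Module.End.iSup_maxGenEigenspace_eq_top _)
    rw [← h1]
    congr 1
    funext χ
    exact wSp_eq R N hNodd χ
  have hconj : ∀ (g : S) (n : N), g⁻¹ * n * g ∈ N := by
    intro g n
    have := hNn.conj_mem n n.2 g⁻¹
    simpa using this
  refine ⟨{ act := wAct N
            act_one := ?_
            act_mul := ?_
            W := wSp R N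
            indep := hindep
            top := htop
            map := ?_
            free := ?_ }⟩
  · intro χ
    funext n
    rw [wAct_apply N 1 χ n (hconj 1 n)]
    congr 1
    apply Subtype.ext
    simp
  · intro g h χ
    funext n
    rw [wAct_apply N (g * h) χ n (hconj (g * h) n), wAct_apply N g _ n (hconj g n),
      wAct_apply N h χ _ (hconj h ⟨_, hconj g n⟩)]
    congr 1
    apply Subtype.ext
    simp [mul_assoc]
  · intro g χ m hm
    rw [mem_wSp] at hm ⊢
    intro n
    have h1 := hm ⟨_, hconj g n⟩
    rw [wAct_apply N g χ n (hconj g n)]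
    have h2 : R (n : S) (R g m) = R g (R (g⁻¹ * n * g) m) := by
      rw [← Module.End.mul_apply, ← Module.End.mul_apply, ← map_mul, ← map_mul]
      congr 2
      group
    rw [h2]
    show R g (R (g⁻¹ * n * g) m) = _
    have h3 : R (g⁻¹ * n * g) m = χ ⟨_, hconj g n⟩ • m := h1
    rw [h3, map_smul]
  · intro x hxQ hx1 χ hW hfixχ
    -- every element of Q fixes χ
    have : Fact q.Prime := ⟨hq⟩
    have hQall : ∀ y ∈ Q, wAct N y χ = χ := by
      intro y hy
      -- y is a power of x
      have hzp : Subgroup.zpowers (⟨x, hxQ⟩ : Q) = ⊤ := by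
        have hcard : Nat.card Q = q := hQ
        apply isCyclic_of_prime_card (α := Q) (p := q) hcard |> fun _ => ?_
        have hx' : (⟨x, hxQ⟩ : Q) ≠ 1 := by
          intro h
          apply hx1
          exact congrArg Subtype.val h
        exact zpowers_eq_top_of_prime_card hcard hx'
      have hymem : (⟨y, hy⟩ : Q) ∈ Subgroup.zpowers (⟨x, hxQ⟩ : Q) := by
        rw [hzp]; trivial
      obtain ⟨k, hk⟩ := hymem
      have hk' : y = x ^ k := by
        have := congrArg Subtype.val hk
        simp at this
        exact this.symm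
      -- powers of x fix χ
      have hpow : ∀ j : ℕ, wAct N (x ^ j) χ = χ := by
        intro j
        induction j with
        | zero =>
          funext n
          rw [wAct_apply N _ χ n (hconj _ n)]
          congr 1
          apply Subtype.ext
          simp
        | succ j ih =>
          have : wAct N (x ^ (j + 1)) χ = wAct N (x ^ j) (wAct N x χ) := by
            funext n
            rw [wAct_apply N _ χ n (hconj _ n), wAct_apply N (x ^ j) _ n (hconj _ n),
              wAct_apply N x χ _ (hconj x ⟨_, hconj (x ^ j) n⟩)]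
            congr 1
            apply Subtype.ext
            simp [pow_succ, mul_assoc]
          rw [this, hfixχ, ih]
      have hinv : ∀ g : S, wAct N g χ = χ → wAct N g⁻¹ χ = χ := by
        intro g hg
        funext n
        have hmem : g * n * g⁻¹ ∈ N := by simpa using hconj g⁻¹ n
        have h1 := congrFun hg ⟨g * n * g⁻¹, hmem⟩
        rw [wAct_apply N g χ _ (hconj g _)] at h1
        rw [wAct_apply N g⁻¹ χ n (hconj _ n)]
        have e1 : (⟨g⁻¹⁻¹ * n * g⁻¹, hconj g⁻¹ n⟩ : N) = ⟨g * n * g⁻¹, hmem⟩ :=
          Subtype.ext (by simp)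
        have e2 : (⟨g⁻¹ * ((⟨g * n * g⁻¹, hmem⟩ : N) : S) * g, hconj g _⟩ : N) = n :=
          Subtype.ext (by simp [mul_assoc])
        rw [e1, ← h1, e2]
      rw [hk']
      rcases Int.natAbs_eq k with hkk | hkk
      · rw [hkk, zpow_natCast]; exact hpow _
      · rw [hkk, zpow_neg, zpow_natCast]; exact hinv _ (hpow _)
    -- a nonzero vector in the weight space
    obtain ⟨m, hmW, hm0⟩ := (Submodule.ne_bot_iff _).mp hW
    rw [mem_wSp] at hmW
    -- χ n ≠ 0
    have hχne : ∀ n : N, χ n ≠ 0 := by
      intro n h0
      have h1 := hmW n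
      rw [h0, zero_smul] at h1
      have h2 : R ((n : S)⁻¹) (R (n : S) m) = m := by
        rw [← Module.End.mul_apply, ← map_mul, inv_mul_cancel, map_one, Module.End.one_apply]
      rw [h1, map_zero] at h2
      exact hm0 h2.symm
    -- the stabilizer of m
    let St : Subgroup S :=
      { carrier := {g | R g m = m}
        one_mem' := by simp
        mul_mem' := by
          intro a b ha hb
          show R (a * b) m = m
          rw [map_mul, Module.End.mul_apply, hb, ha]
        inv_mem' := by
          intro a ha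
          show R a⁻¹ m = m
          have : R a⁻¹ (R a m) = m := by
            rw [← Module.End.mul_apply, ← map_mul, inv_mul_cancel, map_one, Module.End.one_apply]
          rw [ha] at this
          exact this }
    have hle : ⁅N, Q⁆ ≤ St := by
      rw [Subgroup.commutator_le]
      intro n hn y hy
      show R ⁅n, y⁆ m = m
      have hyn : y * n * y⁻¹ ∈ N := hNn.conj_mem n hn y
      have h1 : R (y * n * y⁻¹) m = χ ⟨n, hn⟩ • m := by
        have h2 := hmW ⟨_, hyn⟩
        have h3 := congrFun (hQall y⁻¹ (Q.inv_mem hy)) ⟨n, hn⟩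
        rw [wAct_apply N y⁻¹ χ _ (hconj _ _)] at h3
        have h4 : (⟨y⁻¹⁻¹ * n * y⁻¹, hconj y⁻¹ ⟨n, hn⟩⟩ : N) = ⟨y * n * y⁻¹, hyn⟩ := by
          apply Subtype.ext
          simp
        rw [h4] at h3
        rw [← h3]
        exact h2
      have h5 : R ((y * n * y⁻¹)⁻¹) m = (χ ⟨n, hn⟩)⁻¹ • m := by
        have h6 : R ((y * n * y⁻¹)⁻¹) (R (y * n * y⁻¹) m) = m := by
          rw [← Module.End.mul_apply, ← map_mul, inv_mul_cancel, map_one, Module.End.one_apply]
        rw [h1, map_smul] at h6
        calc R ((y * n * y⁻¹)⁻¹) m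
            = (χ ⟨n, hn⟩)⁻¹ • (χ ⟨n, hn⟩ • R ((y * n * y⁻¹)⁻¹) m) := by
              rw [smul_smul, inv_mul_cancel₀ (hχne ⟨n, hn⟩), one_smul]
          _ = (χ ⟨n, hn⟩)⁻¹ • m := by rw [h6]
      have h7 : ⁅n, y⁆ = n * (y * n * y⁻¹)⁻¹ := by
        rw [commutatorElement_def]; group
      rw [h7, map_mul, Module.End.mul_apply, h5, map_smul]
      have h8 := hmW ⟨n, hn⟩
      rw [show R n m = χ ⟨n, hn⟩ • m from h8, smul_smul, inv_mul_cancel₀ (hχne ⟨n, hn⟩), one_smul]
    rw [hcomm] at hle
    have hmfix : m ∈ fixedSub R (N : Set S) := by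
      rw [mem_fixedSub]
      intro t ht
      exact hle ht
    rw [hfix] at hmfix
    exact hm0 ((Submodule.mem_bot F).mp hmfix)

end Cfsg.Agent.Lib.Helper20.TN
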